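import Mathlib

/-!
Commutative algebra for the Lang theorem.
-/

set_option autoImplicit false

open Polynomial

namespace Cfsg.Agent.Lib.LangThm

/-- Elements whose `q`-th powers are linear in the family are integral. -/
theorem integral_of_pow_lin {R S : Type*} [CommRing R] [CommRing S] [IsNoetherianRing R]
    (φ : R →+* S) (r e : ℕ) [ExpChar S r] (hq : 2 ≤ r ^ e) {ι : Type*} [Fintype ι] (z : ι → S)
    (hz : ∀ i, ∃ c : ι → R, z i ^ (r ^ e) = ∑ j, φ (c j) * z j) (i : ι) :
    φ.IsIntegralElem (z i) := by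
  classical
  letI : Algebra R S := φ.toAlgebra
  set q := r ^ e with hqdef
  let V : Submodule R S := Submodule.span R (Set.range z)
  have hV : ∀ v ∈ V, v ^ q ∈ V := by
    intro v hv
    induction hv using Submodule.span_induction with
    | mem x hx =>
      obtain ⟨j, rfl⟩ := hx
      obtain ⟨c, hc⟩ := hz j
      rw [hc]
      refine Submodule.sum_mem _ fun l _ => ?_
      have : φ (c l) * z l = c l • z l := rfl
      rw [this]
      exact Submodule.smul_mem _ _ (Submodule.subset_span ⟨l, rfl⟩)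
    | zero => rw [zero_pow (by omega)]; exact V.zero_mem
    | add x y _ _ hx hy => rw [hqdef, add_pow_expChar_pow]; exact V.add_mem hx hy
    | smul a x _ hx => rw [_root_.smul_pow]; exact V.smul_mem _ hx
  have hmem : ∀ m : ℕ, z i ^ (q ^ m) ∈ V := by
    intro m
    induction m with
    | zero => simpa using Submodule.subset_span (R := R) (s := Set.range z) ⟨i, rfl⟩
    | succ m ih => rw [pow_succ, pow_mul]; exact hV _ ih
  haveI : Module.Finite R V := Module.Finite.span_of_finite R (Set.finite_range z)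
  let w : ℕ → V := fun m => ⟨z i ^ (q ^ m), hmem m⟩
  let W : ℕ →o Submodule R V :=
    ⟨fun m => Submodule.span R (Set.range fun j : Fin m => w j), fun a b hab =>
      Submodule.span_mono (by
        rintro _ ⟨j, rfl⟩
        exact ⟨⟨j, lt_of_lt_of_le j.2 hab⟩, rfl⟩)⟩
  obtain ⟨m, hm⟩ := (monotone_stabilizes_iff_noetherian.2 inferInstance) W
  have h1 : w m ∈ W m := by
    rw [hm (m + 1) (by omega)]
    exact Submodule.subset_span ⟨⟨m, by omega⟩, rfl⟩
  obtain ⟨c, hc⟩ := (Submodule.mem_span_range_iff_exists_fun R).1 h1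
  have hc' : ∑ j : Fin m, φ (c j) * z i ^ (q ^ (j : ℕ)) = z i ^ (q ^ m) := by
    have := congrArg (fun v : V => (v : S)) hc
    simp only [Submodule.coe_sum, Submodule.coe_smul, w] at this
    exact this
  refine ⟨X ^ (q ^ m) - ∑ j : Fin m, C (c j) * X ^ (q ^ (j : ℕ)), ?_, ?_⟩
  · refine monic_X_pow_sub ?_
    refine lt_of_le_of_lt (degree_sum_le _ _) ?_
    rw [Finset.sup_lt_iff (by exact_mod_cast WithBot.bot_lt_coe _)]
    intro j _
    refine lt_of_le_of_lt (degree_C_mul_X_pow_le _ _) ?_
    exact_mod_cast Nat.pow_lt_pow_right (by omega) j.2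
  · simp only [eval₂_sub, eval₂_X_pow, eval₂_finset_sum, eval₂_mul, eval₂_C]
    rw [hc', sub_self]

/-- An integral endomorphism of a Noetherian domain is injective. -/
theorem injective_of_integral {A : Type*} [CommRing A] [IsDomain A] [IsNoetherianRing A]
    (φ : A →+* A) (hφ : φ.IsIntegral) : Function.Injective φ := by
  have key : ∀ {R S : Type _} [CommRing R] [CommRing S] (ψ : R →+* S) (_ : ψ.IsIntegral)
      (I J : Ideal S) [I.IsPrime], I < J → I.comap ψ < J.comap ψ := by
    intro R S _ _ ψ hψ I J _ hIJ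
    letI : Algebra R S := ψ.toAlgebra
    haveI : Algebra.IsIntegral R S := ⟨hψ⟩
    exact Ideal.IsIntegral.comap_lt_comap (R := R) hIJ
  by_contra hinj
  let P : ℕ → Ideal A := fun n => (fun I : Ideal A => I.comap φ)^[n] ⊥
  have hP : ∀ n, (P n).IsPrime := by
    intro n
    induction n with
    | zero => exact Ideal.isPrime_bot
    | succ n ih =>
      simp only [P, Function.iterate_succ_apply']
      exact Ideal.comap_isPrime φ _
  have hlt : ∀ n, P n < P (n + 1) := by
    intro n
    induction n with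
    | zero =>
      refine bot_lt_iff_ne_bot.2 fun h => hinj ?_
      exact (RingHom.injective_iff_ker_eq_bot φ).2 h
    | succ n ih =>
      have := hP n
      have h := key φ hφ _ _ ih
      simpa only [P, Function.iterate_succ_apply'] using h
  obtain ⟨m, hm⟩ := (monotone_stabilizes_iff_noetherian.2 (inferInstance : IsNoetherian A A))
    ⟨P, (strictMono_nat_of_lt_succ hlt).monotone⟩
  exact (hlt m).ne (hm (m + 1) (by omega))

variable {k : Type*} [Field k]

theorem point_eq_of_ker_le {A : Type*} [CommRing A] [Algebra k A] (y y' : A →ₐ[k] k)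
    (h : ∀ a, y a = 0 → y' a = 0) : y = y' := by
  ext a
  have := h (a - algebraMap k A (y a)) (by simp)
  simp only [map_sub, AlgHom.commutes, Algebra.algebraMap_self, RingHom.id_apply] at this
  exact (sub_eq_zero.1 this).symm

theorem point_of_maximal [IsAlgClosed k] {B : Type*} [CommRing B] [Algebra k B]
    [Algebra.FiniteType k B] (M : Ideal B) [hM : M.IsMaximal] :
    ∃ ψ : B →ₐ[k] k, ∀ b, ψ b = 0 ↔ b ∈ M := by
  letI : Field (B ⧸ M) := Ideal.Quotient.field M
  haveI : Module.Finite k (B ⧸ M) := finite_of_finite_type_of_isJacobsonRing k (B ⧸ M)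
  have hb : Function.Bijective (algebraMap k (B ⧸ M)) :=
    IsAlgClosed.algebraMap_bijective_of_isIntegral
  let e : k ≃ₐ[k] (B ⧸ M) := AlgEquiv.ofBijective (Algebra.ofId k _) hb
  refine ⟨(e.symm : (B ⧸ M) →ₐ[k] k).comp (Ideal.Quotient.mkₐ k M), fun b => ?_⟩
  simp [Ideal.Quotient.eq_zero_iff_mem]

theorem ker_point_maximal {A : Type*} [CommRing A] [Algebra k A] (y : A →ₐ[k] k) :
    (RingHom.ker y).IsMaximal :=
  RingHom.ker_isMaximal_of_surjective y fun c => ⟨algebraMap k A c, by simp⟩

/-- A point extends along any map as soon as its kernel is a contracted prime. -/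
theorem point_extend [IsAlgClosed k] {A B : Type*} [CommRing A] [Algebra k A] [CommRing B]
    [Algebra k B] [Algebra.FiniteType k B] (φ : A →ₐ[k] B) (y : A →ₐ[k] k) (P : Ideal B)
    (hP : P ≠ ⊤) (hPy : ∀ a, y a = 0 → φ a ∈ P) : ∃ ψ : B →ₐ[k] k, ψ.comp φ = y := by
  obtain ⟨M, hM, hPM⟩ := Ideal.exists_le_maximal P hP
  obtain ⟨ψ, hψ⟩ := point_of_maximal (k := k) M
  exact ⟨ψ, (point_eq_of_ker_le y _ fun a ha => (hψ _).2 (hPM (hPy a ha))).symm⟩

/-- Lying over for points. -/
theorem point_lift [IsAlgClosed k] {A B : Type*} [CommRing A] [Algebra k A] [CommRing B]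
    [Algebra k B] [Algebra.FiniteType k B] (φ : A →ₐ[k] B) (hi : Function.Injective φ)
    (hφ : (φ : A →+* B).IsIntegral) (y : A →ₐ[k] k) : ∃ ψ : B →ₐ[k] k, ψ.comp φ = y := by
  letI : Algebra A B := (φ : A →+* B).toAlgebra
  haveI : Algebra.IsIntegral A B := ⟨hφ⟩
  haveI := ker_point_maximal y
  obtain ⟨Q, hQ, hQy⟩ := Ideal.exists_ideal_over_maximal_of_isIntegral (S := B) (RingHom.ker y)
    (by
      have : RingHom.ker (algebraMap A B) = ⊥ := (RingHom.injective_iff_ker_eq_bot _).1 hi
      rw [this]; exact bot_le)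
  refine point_extend φ y Q hQ.ne_top fun a ha => ?_
  have : a ∈ Q.comap (algebraMap A B) := by rw [hQy]; exact ha
  exact this

/-- Generic extension of points along an injective map of finitely generated algebras. -/
theorem point_generic [IsAlgClosed k] {A B : Type*} [CommRing A] [Algebra k A] [CommRing B]
    [Algebra k B] [Algebra.FiniteType k A] [Algebra.FiniteType k B] [IsDomain A] [IsDomain B]
    (φ : A →ₐ[k] B) (hi : Function.Injective φ) :
    ∃ f : A, f ≠ 0 ∧ ∀ y : A →ₐ[k] k, y f ≠ 0 → ∃ ψ : B →ₐ[k] k, ψ.comp φ = y := by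
  haveI : IsNoetherianRing A := Algebra.FiniteType.isNoetherianRing k A
  have hfp : (φ : A →+* B).FinitePresentation := by
    letI : Algebra A B := (φ : A →+* B).toAlgebra
    haveI : IsScalarTower k A B := IsScalarTower.of_algebraMap_eq fun c => (φ.commutes c).symm
    haveI : Algebra.FiniteType A B := Algebra.FiniteType.of_restrictScalars_finiteType k A B
    exact Algebra.FinitePresentation.of_finiteType.mp this
  obtain ⟨S, hS⟩ := PrimeSpectrum.exists_constructibleSetData_iff.2
    (PrimeSpectrum.isConstructible_range_comap hfp)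
  have h0 : (⟨⊥, Ideal.isPrime_bot⟩ : PrimeSpectrum A) ∈ S.toSet := by
    rw [hS]
    refine ⟨⟨⊥, Ideal.isPrime_bot⟩, PrimeSpectrum.ext ?_⟩
    exact (RingHom.injective_iff_ker_eq_bot (φ : A →+* B)).1 hi
  simp only [PrimeSpectrum.ConstructibleSetData.toSet, Set.mem_iUnion] at h0
  obtain ⟨C, hC, hg, hf⟩ := h0
  refine ⟨C.f, fun h => hf (by simp [h]), fun y hy => ?_⟩
  have hy' : (⟨RingHom.ker y, (ker_point_maximal y).isPrime⟩ : PrimeSpectrum A) ∈ S.toSet := by
    simp only [PrimeSpectrum.ConstructibleSetData.toSet, Set.mem_iUnion]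
    refine ⟨C, hC, ?_, fun h => hy ?_⟩
    · intro a ha
      have : a ∈ (⊥ : Ideal A) := hg ha
      rw [Ideal.mem_bot.1 this]
      exact Ideal.zero_mem _
    · exact h (Set.mem_singleton _)
  rw [hS] at hy'
  obtain ⟨P, hP⟩ := hy'
  refine point_extend φ y P.asIdeal P.isPrime.ne_top fun a ha => ?_
  have h1 : a ∈ (PrimeSpectrum.comap (φ : A →+* B) P).asIdeal := by rw [hP]; exact ha
  exact h1

/-- Away from a proper closed set, all lifts of a point avoid the zero set of `f`. -/
theorem avoid {A B : Type*} [CommRing A] [Nontrivial A] [CommRing B] [IsDomain B] (φ : A →+* B)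
    (hφ : φ.IsIntegral) (f : B) (hf : f ≠ 0) : ∃ d : A, d ≠ 0 ∧ f ∣ φ d := by
  letI : Algebra A B := φ.toAlgebra
  have h := Ideal.comap_ne_bot_of_integral_mem (R := A) (I := Ideal.span {f}) hf
    (Ideal.mem_span_singleton_self f) (hφ f)
  obtain ⟨d, hd, hd0⟩ := Submodule.exists_mem_ne_zero_of_ne_bot h
  exact ⟨d, hd0, Ideal.mem_span_singleton.1 hd⟩

end Cfsg.Agent.Lib.LangThm
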