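import Cfsg.Agent.Lib.Lang.Main
import Cfsg.Agent.Lib.Chev.Field

/-!
The Lang theorem for the Chevalley group of a certified datum over an algebraically closed field.
-/

set_option autoImplicit false

open Polynomial Cfsg.Lie
open scoped MatrixGroups

namespace Cfsg.Agent.Lib.Chev.Cert
open Cfsg.Agent.Lib.LangThm

variable {D : ChevalleyDatum} (K : Cert D) {k : Type*} [Field k]

theorem x_poly (r : Fin D.nroots) (a b : D.Idx) :
    ∃ p : k[X], ∀ t : k, (K.x r t : Matrix D.Idx D.Idx k) a b = p.eval t := by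
  refine ⟨(1 + Mat (enc D) (K.nil r) (Polynomial.X : k[X])) a b, fun t => ?_⟩
  rw [x_val, K.xMat_eq]
  have h := Mat_map (enc D) (Polynomial.evalRingHom t) (K.nil r) (Polynomial.X : k[X])
  simp only [coe_evalRingHom, eval_X] at h
  rw [← h]
  simp only [Matrix.add_apply, Matrix.map_apply, eval_add, Matrix.one_apply]
  split_ifs <;> simp

include K in
theorem conn : Conn (D.group k) := by
  refine conn_of_gen (fun r t => K.x r t) K.x_poly (fun r a b => ?_) (fun r => ⟨0, K.x_zero r⟩) _ ?_
  · obtain ⟨p, hp⟩ := K.x_poly (k := k) r a b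
    refine ⟨p.comp (-Polynomial.X), fun t => ?_⟩
    rw [← K.x_neg, hp]; simp
  · unfold ChevalleyDatum.group
    congr 1
    ext g
    exact ⟨fun ⟨r, t, h⟩ => ⟨r, t, Units.ext h⟩, fun ⟨r, t, h⟩ => ⟨r, t, by rw [h]; rfl⟩⟩

include K in
/-- Lang: `g ↦ g⁻¹ F(g)` is onto, for the entrywise `r ^ e`-power map `F`. -/
theorem lang_alg [IsAlgClosed k] (r e : ℕ) [ExpChar k r] (hq : 2 ≤ r ^ e) (a : GL D.Idx k)
    (ha : a ∈ D.group k) :
    ∃ g ∈ D.group k, g⁻¹ * Matrix.GeneralLinearGroup.map (iterateFrobenius k r e) g = a :=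
  lang_frob r e hq K.conn (fun _ hg => K.map_mem _ hg) a ha

include K in
/-- Lang for the Frobenius map twisted by conjugation with a normalising matrix `w` that is fixed
by the Frobenius map and has finite order. -/
theorem lang_twist [IsAlgClosed k] (r e : ℕ) [ExpChar k r] (hq : 2 ≤ r ^ e) (w : GL D.Idx k)
    (hw : ∀ g ∈ D.group k, w * g * w⁻¹ ∈ D.group k)
    (hwF : Matrix.GeneralLinearGroup.map (iterateFrobenius k r e) w = w) (m : ℕ) (hm : 0 < m)
    (hwm : w ^ m = 1) (a : GL D.Idx k) (ha : a ∈ D.group k) :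
    ∃ g ∈ D.group k,
      g⁻¹ * (w * Matrix.GeneralLinearGroup.map (iterateFrobenius k r e) g * w⁻¹) = a := by
  let Fr := frobOn r e (D.group k) (fun _ hg => K.map_mem _ hg)
  let c : D.group k →* D.group k :=
    (((MulAut.conj w).toMonoidHom).comp (D.group k).subtype).codRestrict _ fun g => hw g g.2
  have hreg : Reg (CA (D.group k)) (fun g => (Fr g : GL D.Idx k)) := fun i j =>
    ⟨(CA _).pow_mem (reg_id _ i j).1 (r ^ e), by
      have := (CA _).pow_mem (reg_id (D.group k) i j).2 (r ^ e)
      convert this using 1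
      funext g
      change ((Fr g)⁻¹ : D.group k).val.val i j = _
      rw [← map_inv]; rfl⟩
  have hit : ∀ (j : ℕ) (g : D.group k), (((c.comp Fr)^[j] g : D.group k) : GL D.Idx k) =
      w ^ j * Matrix.GeneralLinearGroup.map (iterateFrobenius k r (e * j)) g * (w ^ j)⁻¹ := by
    intro j g
    induction j with
    | zero => ext a b; simp
    | succ j ih =>
      rw [Function.iterate_succ_apply']
      change w * Matrix.GeneralLinearGroup.map (iterateFrobenius k r e)
        (((c.comp Fr)^[j] g : D.group k) : GL D.Idx k) * w⁻¹ = _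
      rw [ih, map_mul, map_mul, map_inv, map_pow, hwF]
      have : Matrix.GeneralLinearGroup.map (iterateFrobenius k r e)
          (Matrix.GeneralLinearGroup.map (iterateFrobenius k r (e * j)) (g : GL D.Idx k)) =
          Matrix.GeneralLinearGroup.map (iterateFrobenius k r (e * (j + 1))) (g : GL D.Idx k) := by
        ext a b
        simp [iterateFrobenius_def, ← pow_mul, ← pow_add, mul_add]
      rw [this]
      group
  have hq' : 2 ≤ r ^ (e * m) := by
    rw [pow_mul]
    exact le_trans hq (Nat.le_self_pow hm.ne' _)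
  obtain ⟨g, hg⟩ := lang_of_conn r (e * m) hq' K.conn (c.comp Fr)
    (fun i j => ((((Reg.const _ w).mul hreg).mul (Reg.const _ w⁻¹)) i j).1) m
    (fun g i j => by rw [hit, hwm]; simp [iterateFrobenius_def]) ⟨a, ha⟩
  exact ⟨g, g.2, congrArg Subtype.val hg⟩

end Cfsg.Agent.Lib.Chev.Cert
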