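import Mathlib
import Cfsg.Agent.Lib.Lang.CA

/-!
The Lang theorem for a matrix group over an algebraically closed field that is generated by
polynomial one-parameter families.
-/

set_option autoImplicit false

open Polynomial
open scoped MatrixGroups

namespace Cfsg.Agent.Lib.LangThm

variable {k : Type*} [Field k] {n : Type*} [Fintype n] [DecidableEq n]

/-- All entries of `L x` and of its inverse lie in the function algebra `B`. -/
def Reg {X : Type*} (B : Subalgebra k (X → k)) (L : X → GL n k) : Prop :=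
  ∀ i j, (fun x => (L x : Matrix n n k) i j) ∈ B ∧
    (fun x => ((L x)⁻¹ : GL n k).val i j) ∈ B

theorem Reg.const {X : Type*} (B : Subalgebra k (X → k)) (c : GL n k) : Reg B (fun _ => c) :=
  fun _ _ => ⟨B.algebraMap_mem _, B.algebraMap_mem _⟩

theorem Reg.inv {X : Type*} {B : Subalgebra k (X → k)} {L : X → GL n k} (h : Reg B L) :
    Reg B (fun x => (L x)⁻¹) :=
  fun i j => ⟨(h i j).2, by simpa using (h i j).1⟩

theorem mul_entry_mem {X : Type*} {B : Subalgebra k (X → k)} {L M : X → Matrix n n k}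
    (hL : ∀ i j, (fun x => L x i j) ∈ B) (hM : ∀ i j, (fun x => M x i j) ∈ B) (i j : n) :
    (fun x => (L x * M x) i j) ∈ B := by
  have : (fun x => (L x * M x) i j) = ∑ l, (fun x => L x i l) * (fun x => M x l j) := by
    ext x; simp [Matrix.mul_apply]
  rw [this]
  exact B.sum_mem fun l _ => B.mul_mem (hL i l) (hM l j)

theorem Reg.mul {X : Type*} {B : Subalgebra k (X → k)} {L M : X → GL n k} (hL : Reg B L)
    (hM : Reg B M) : Reg B (fun x => L x * M x) := by
  intro i j
  refine ⟨?_, ?_⟩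
  · simpa using mul_entry_mem (L := fun x => (L x).val) (M := fun x => (M x).val)
      (fun i j => (hL i j).1) (fun i j => (hM i j).1) i j
  · simp only [mul_inv_rev, Units.val_mul]
    exact mul_entry_mem (L := fun x => ((M x)⁻¹).val) (M := fun x => ((L x)⁻¹).val)
      (fun i j => (hM i j).2) (fun i j => (hL i j).2) i j

/-- The generators of the coordinate algebra. -/
def ent (G : Subgroup (GL n k)) (b : Bool × n × n) : G → k := fun g =>
  if b.1 then ((g : GL n k) : Matrix n n k) b.2.1 b.2.2 else ((g : GL n k)⁻¹ : GL n k).val b.2.1 b.2.2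

/-- The coordinate algebra of a matrix group. -/
def CA (G : Subgroup (GL n k)) : Subalgebra k (G → k) := Algebra.adjoin k (Set.range (ent G))

theorem reg_id (G : Subgroup (GL n k)) : Reg (CA G) (fun g : G => (g : GL n k)) :=
  fun i j => ⟨Algebra.subset_adjoin ⟨(true, i, j), rfl⟩, Algebra.subset_adjoin ⟨(false, i, j), rfl⟩⟩

instance (G : Subgroup (GL n k)) : Algebra.FiniteType k (CA G) :=
  (Subalgebra.fg_iff_finiteType _).1 (Subalgebra.fg_def.2 ⟨_, Set.finite_range _, rfl⟩)

/-- Precomposition of functions. -/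
def pre {X Y : Type*} (L : X → Y) : (Y → k) →ₐ[k] (X → k) where
  toFun f := fun x => f (L x)
  map_one' := rfl
  map_mul' _ _ := rfl
  map_zero' := rfl
  map_add' _ _ := rfl
  commutes' _ := rfl

theorem pre_mem {X : Type*} {B : Subalgebra k (X → k)} {G : Subgroup (GL n k)} {L : X → G}
    (h : Reg B (fun x => (L x : GL n k))) {f : G → k} (hf : f ∈ CA G) : pre L f ∈ B := by
  have : CA G ≤ B.comap (pre L) := by
    refine Algebra.adjoin_le ?_
    rintro _ ⟨⟨b, i, j⟩, rfl⟩
    cases b
    · exact (h i j).2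
    · exact (h i j).1
  exact this hf

/-- Pull-back of coordinate functions along a regular map. -/
def pull {X : Type*} {B : Subalgebra k (X → k)} {G : Subgroup (GL n k)} (L : X → G)
    (h : Reg B (fun x => (L x : GL n k))) : CA G →ₐ[k] B :=
  ((pre L).comp (CA G).val).codRestrict B fun f => pre_mem h f.2

theorem pull_apply {X : Type*} {B : Subalgebra k (X → k)} {G : Subgroup (GL n k)} (L : X → G)
    (h : Reg B (fun x => (L x : GL n k))) (f : CA G) (x : X) :
    (pull L h f : X → k) x = (f : G → k) (L x) := rfl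

theorem Reg.comp {X : Type*} {B : Subalgebra k (X → k)} {G : Subgroup (GL n k)} {L : X → G}
    (h : Reg B (fun x => (L x : GL n k))) {M : G → GL n k} (hM : Reg (CA G) M) :
    Reg B (fun x => M (L x)) :=
  fun i j => ⟨pre_mem h (hM i j).1, pre_mem h (hM i j).2⟩

/-- Evaluation at a point. -/
def ev {X : Type*} (B : Subalgebra k (X → k)) (x : X) : B →ₐ[k] k :=
  (Pi.evalAlgHom k (fun _ => k) x).comp B.val

theorem ev_apply {X : Type*} (B : Subalgebra k (X → k)) (x : X) (f : B) :
    ev B x f = (f : X → k) x := rfl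

theorem ev_inj {G : Subgroup (GL n k)} {g h : G} (e : ev (CA G) g = ev (CA G) h) : g = h := by
  apply Subtype.ext
  apply Units.ext
  ext i j
  exact DFunLike.congr_fun e ⟨_, (reg_id G i j).1⟩

/-- Polynomials as functions. -/
noncomputable def pfun (s : Type) : MvPolynomial s k →ₐ[k] ((s → k) → k) :=
  MvPolynomial.aeval (fun i t => t i)

theorem pfun_apply (s : Type) (p : MvPolynomial s k) (t : s → k) :
    pfun s p t = MvPolynomial.eval t p := by
  induction p using MvPolynomial.induction_on with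
  | C a => simp [pfun]
  | add p q hp hq => simp [hp, hq]
  | mul_X p i hp => rw [map_mul, Pi.mul_apply, hp]; simp [pfun]

/-- Polynomial functions. -/
noncomputable def PF (k : Type*) [Field k] (s : Type) : Subalgebra k ((s → k) → k) := (pfun s).range

theorem pfun_inj [Infinite k] (s : Type) : Function.Injective (pfun (k := k) s) := by
  intro p q h
  exact MvPolynomial.funext fun t => by rw [← pfun_apply, ← pfun_apply, h]

instance [Infinite k] (s : Type) : IsDomain (PF k s) :=
  (AlgEquiv.ofInjective (pfun s) (pfun_inj s)).symm.toMulEquiv.isDomain _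

instance (s : Type) [Finite s] : Algebra.FiniteType k (PF k s) :=
  Algebra.FiniteType.of_surjective (pfun s).rangeRestrict (pfun s).rangeRestrict_surjective

theorem PF_point (s : Type) (ψ : PF k s →ₐ[k] k) : ∃ t, ψ = ev (PF k s) t := by
  refine ⟨fun i => ψ ((pfun s).rangeRestrict (MvPolynomial.X i)), ?_⟩
  have : ψ.comp (pfun s).rangeRestrict = (ev (PF k s)
      (fun i => ψ ((pfun s).rangeRestrict (MvPolynomial.X i)))).comp (pfun s).rangeRestrict := by
    apply MvPolynomial.algHom_ext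
    intro i
    change ψ _ = pfun s (MvPolynomial.X i) _
    rw [pfun_apply, MvPolynomial.eval_X]
    rfl
  ext f
  obtain ⟨p, rfl⟩ := (pfun s).rangeRestrict_surjective f
  exact DFunLike.congr_fun this p

theorem PF_comp {s s' : Type} (u : s → s') {f : (s → k) → k} (hf : f ∈ PF k s) :
    (fun t : s' → k => f (t ∘ u)) ∈ PF k s' := by
  obtain ⟨p, rfl⟩ := hf
  refine ⟨MvPolynomial.rename u p, ?_⟩
  ext t
  change pfun s' _ t = pfun s p _
  rw [pfun_apply, pfun_apply, MvPolynomial.eval_rename]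

theorem PF_poly (p : k[X]) : (fun t : Unit → k => p.eval (t ())) ∈ PF k Unit := by
  induction p using Polynomial.induction_on' with
  | add p q hp hq =>
    simp only [eval_add]
    exact (PF k Unit).add_mem hp hq
  | monomial m a =>
    have h1 : (fun t : Unit → k => t ()) ∈ PF k Unit := ⟨MvPolynomial.X (), by simp [pfun]⟩
    have := (PF k Unit).mul_mem ((PF k Unit).algebraMap_mem a) ((PF k Unit).pow_mem h1 m)
    convert this using 1
    ext t; simp

/-- A polynomial family of group elements through the identity. -/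
structure Fam (G : Subgroup (GL n k)) where
  s : Type
  fin : Finite s
  π : (s → k) → G
  reg : Reg (PF k s) (fun t => (π t : GL n k))
  one : ∃ t, π t = 1

/-- Product of two families. -/
def Fam.mul {G : Subgroup (GL n k)} (F F' : Fam G) : Fam G where
  s := F.s ⊕ F'.s
  fin := by have := F.fin; have := F'.fin; infer_instance
  π t := F.π (t ∘ Sum.inl) * F'.π (t ∘ Sum.inr)
  reg := by
    refine Reg.mul (L := fun t : F.s ⊕ F'.s → k => (F.π (t ∘ Sum.inl) : GL n k))
      (M := fun t : F.s ⊕ F'.s → k => (F'.π (t ∘ Sum.inr) : GL n k)) ?_ ?_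
    · exact fun i j => ⟨PF_comp Sum.inl (F.reg i j).1, PF_comp Sum.inl (F.reg i j).2⟩
    · exact fun i j => ⟨PF_comp Sum.inr (F'.reg i j).1, PF_comp Sum.inr (F'.reg i j).2⟩
  one := by
    obtain ⟨t, ht⟩ := F.one
    obtain ⟨t', ht'⟩ := F'.one
    exact ⟨Sum.elim t t', by simp [ht, ht']⟩

theorem Fam.mul_mem {G : Subgroup (GL n k)} (F F' : Fam G) (t : F.s → k) (t' : F'.s → k) :
    ∃ u, (F.mul F').π u = F.π t * F'.π t' :=
  ⟨Sum.elim t t', by simp [Fam.mul]⟩

/-- Inverse of a family. -/
def Fam.inv {G : Subgroup (GL n k)} (F : Fam G) : Fam G where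
  s := F.s
  fin := F.fin
  π t := (F.π t)⁻¹
  reg := F.reg.inv
  one := by
    obtain ⟨t, ht⟩ := F.one
    exact ⟨t, by simp [ht]⟩

/-- The trivial family. -/
def Fam.triv (G : Subgroup (GL n k)) : Fam G where
  s := Unit
  fin := inferInstance
  π _ := 1
  reg := Reg.const _ 1
  one := ⟨0, rfl⟩

/-- Every element lies in a family. -/
def Conn (G : Subgroup (GL n k)) : Prop := ∀ g : G, ∃ (F : Fam G) (t : F.s → k), F.π t = g

theorem conn_of_gen {ι : Type*} (x : ι → k → GL n k)
    (hx : ∀ i a b, ∃ p : k[X], ∀ t, (x i t : Matrix n n k) a b = p.eval t)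
    (hx' : ∀ i a b, ∃ p : k[X], ∀ t, ((x i t)⁻¹ : GL n k).val a b = p.eval t)
    (h0 : ∀ i, ∃ t, x i t = 1) (G : Subgroup (GL n k))
    (hG : G = Subgroup.closure {g | ∃ i t, g = x i t}) : Conn G := by
  rintro ⟨g, hg⟩
  have hmem : ∀ i t, x i t ∈ G := fun i t => hG ▸ Subgroup.subset_closure ⟨i, t, rfl⟩
  have key : ∀ g ∈ Subgroup.closure {g | ∃ i t, g = x i t},
      ∃ (F : Fam G) (t : F.s → k), (F.π t : GL n k) = g := by
    intro g hg
    induction hg using Subgroup.closure_induction with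
    | mem y hy =>
      obtain ⟨i, t, rfl⟩ := hy
      refine ⟨⟨Unit, inferInstance, fun u => ⟨x i (u ()), hmem _ _⟩, fun a b => ⟨?_, ?_⟩, ?_⟩,
        fun _ => t, rfl⟩
      · obtain ⟨p, hp⟩ := hx i a b
        simpa only [hp] using PF_poly p
      · obtain ⟨p, hp⟩ := hx' i a b
        simpa only [hp] using PF_poly p
      · obtain ⟨t, ht⟩ := h0 i
        exact ⟨fun _ => t, Subtype.ext ht⟩
    | one => exact ⟨Fam.triv G, 0, rfl⟩
    | mul y z _ _ hy hz =>
      obtain ⟨F, t, rfl⟩ := hy
      obtain ⟨F', t', rfl⟩ := hz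
      obtain ⟨u, hu⟩ := F.mul_mem F' t t'
      exact ⟨F.mul F', u, by rw [hu]; rfl⟩
    | inv y _ hy =>
      obtain ⟨F, t, rfl⟩ := hy
      exact ⟨F.inv, t, rfl⟩
  obtain ⟨F, t, ht⟩ := key g (hG ▸ hg)
  exact ⟨F, t, Subtype.ext ht⟩

/-- A family with dense image. -/
theorem exists_dense [Infinite k] {G : Subgroup (GL n k)} (hG : Conn G) :
    ∃ F : Fam G, Function.Injective (pull F.π F.reg) := by
  haveI : IsNoetherianRing (CA G) := Algebra.FiniteType.isNoetherianRing k _
  let I : Fam G → Ideal (CA G) := fun F => RingHom.ker (pull F.π F.reg)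
  have hI : ∀ F, (I F).IsPrime := fun F => RingHom.ker_isPrime _
  have hmem : ∀ F f, f ∈ I F ↔ ∀ t, (f : G → k) (F.π t) = 0 := by
    intro F f
    simp only [I, RingHom.mem_ker]
    constructor
    · intro h t
      rw [← pull_apply F.π F.reg, h]; rfl
    · intro h
      exact Subtype.ext (funext h)
  haveI : Nonempty (Fam G) := ⟨Fam.triv G⟩
  let F₀ : Fam G := Function.argmin (fun F => (I F).height)
  refine ⟨F₀, (RingHom.injective_iff_ker_eq_bot _).2 (eq_bot_iff.2 fun f hf => ?_)⟩
  rw [Ideal.mem_bot]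
  apply Subtype.ext
  funext g
  obtain ⟨F, t, rfl⟩ := hG g
  have hle : I (F₀.mul F) ≤ I F₀ := by
    intro f hf
    rw [hmem] at hf ⊢
    intro u
    obtain ⟨t', ht'⟩ := F.one
    obtain ⟨v, hv⟩ := F₀.mul_mem F u t'
    have := hf v
    rwa [hv, ht', mul_one] at this
  haveI := hI (F₀.mul F)
  have heq : I (F₀.mul F) = I F₀ :=
    Ideal.eq_of_le_of_height_le _ hle (Function.argmin_le (fun F => (I F).height) _)
  have hf' : f ∈ I (F₀.mul F) := heq ▸ hf
  rw [hmem] at hf'
  obtain ⟨u, hu⟩ := F₀.one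
  obtain ⟨v, hv⟩ := F₀.mul_mem F u t
  have := hf' v
  rwa [hv, hu, one_mul] at this

theorem isDomain_CA [Infinite k] {G : Subgroup (GL n k)} (hG : Conn G) : IsDomain (CA G) := by
  obtain ⟨F, hF⟩ := exists_dense hG
  exact hF.isDomain (pull F.π F.reg : CA G →+* PF k F.s)

theorem open_dense [IsAlgClosed k] {G : Subgroup (GL n k)} (hG : Conn G) :
    ∃ f : CA G, f ≠ 0 ∧ ∀ y : CA G →ₐ[k] k, y f ≠ 0 → ∃ g, y = ev (CA G) g := by
  haveI := isDomain_CA hG
  obtain ⟨F, hF⟩ := exists_dense hG
  haveI := F.fin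
  obtain ⟨f, hf, h⟩ := point_generic (pull F.π F.reg) hF
  refine ⟨f, hf, fun y hy => ?_⟩
  obtain ⟨ψ, rfl⟩ := h y hy
  obtain ⟨t, rfl⟩ := PF_point F.s ψ
  exact ⟨F.π t, rfl⟩

/-- A finite self-map of a connected group hits a dense open set. -/
theorem hits [IsAlgClosed k] {G : Subgroup (GL n k)} (hG : Conn G) (L : G → G)
    (hL : Reg (CA G) (fun g => (L g : GL n k)))
    (hint : (pull L hL : CA G →+* CA G).IsIntegral) :
    ∃ d : CA G, d ≠ 0 ∧ ∀ y : G, (d : G → k) y ≠ 0 → ∃ g, L g = y := by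
  haveI := isDomain_CA hG
  haveI : IsNoetherianRing (CA G) := Algebra.FiniteType.isNoetherianRing k _
  obtain ⟨f, hf, h⟩ := open_dense hG
  obtain ⟨d, hd, c, hc⟩ := avoid _ hint f hf
  refine ⟨d, hd, fun y hy => ?_⟩
  obtain ⟨ψ, hψ⟩ := point_lift (pull L hL) (injective_of_integral _ hint) hint (ev (CA G) y)
  have h1 : ψ (pull L hL d) ≠ 0 := by
    rw [← AlgHom.comp_apply, hψ]; exact hy
  have h2 : ψ f ≠ 0 := by
    intro h0
    apply h1
    have : pull L hL d = f * c := hc
    rw [this, map_mul, h0, zero_mul]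
  obtain ⟨g, rfl⟩ := h ψ h2
  exact ⟨g, ev_inj hψ⟩

theorem integral_of_rel (r e : ℕ) [ExpChar k r] (hq : 2 ≤ r ^ e) {G : Subgroup (GL n k)}
    (L : G → G) (hL : Reg (CA G) (fun g => (L g : GL n k))) (c : GL n k) (N : G → GL n k)
    (hN : Reg (CA G) N)
    (h1 : ∀ (g : G) i j, ((g : GL n k) : Matrix n n k) i j ^ (r ^ e) = (c * g * N (L g)).val i j)
    (h2 : ∀ (g : G) i j, ((g : GL n k)⁻¹).val i j ^ (r ^ e) = ((c * g * N (L g))⁻¹).val i j) :
    (pull L hL : CA G →+* CA G).IsIntegral := by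
  haveI : IsNoetherianRing (CA G) := Algebra.FiniteType.isNoetherianRing k _
  haveI : Nontrivial (CA G) := by
    refine ⟨⟨0, 1, fun h => ?_⟩⟩
    have := congrArg (fun f : CA G => (f : G → k) 1) h
    simp at this
  haveI : ExpChar (CA G) r := expChar_of_injective_algebraMap (R := k) (algebraMap k (CA G)).injective r
  set φ := (pull L hL : CA G →+* CA G) with hφ
  have hA : ∀ i j, φ.IsIntegralElem ⟨_, (reg_id G i j).1⟩ := by
    intro i j
    refine integral_of_pow_lin φ r e hq (fun p : n × n => (⟨_, (reg_id G p.1 p.2).1⟩ : CA G))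
      (fun p => ⟨fun l => algebraMap k _ (c.val p.1 l.1) * ⟨_, (hN l.2 p.2).1⟩, ?_⟩) (i, j)
    apply Subtype.ext
    funext g
    have := h1 g p.1 p.2
    simp only [Units.val_mul, Matrix.mul_apply, Finset.sum_mul] at this
    rw [Finset.sum_comm] at this
    simp only [SubmonoidClass.coe_pow, Pi.pow_apply, AddSubmonoidClass.coe_finset_sum,
      Finset.sum_apply, Fintype.sum_prod_type, MulMemClass.coe_mul, Pi.mul_apply, map_mul]
    rw [this]
    refine Finset.sum_congr rfl fun a _ => Finset.sum_congr rfl fun b _ => ?_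
    change _ = c.val p.1 a * (N (L g)).val b p.2 * _
    ring
  have hB : ∀ i j, φ.IsIntegralElem ⟨_, (reg_id G i j).2⟩ := by
    intro i j
    refine integral_of_pow_lin φ r e hq (fun p : n × n => (⟨_, (reg_id G p.1 p.2).2⟩ : CA G))
      (fun p => ⟨fun l => algebraMap k _ ((c⁻¹).val l.2 p.2) * ⟨_, (hN p.1 l.1).2⟩, ?_⟩) (i, j)
    apply Subtype.ext
    funext g
    have := h2 g p.1 p.2
    simp only [mul_inv_rev, Units.val_mul, Matrix.mul_apply, Finset.mul_sum] at this
    simp only [SubmonoidClass.coe_pow, Pi.pow_apply, AddSubmonoidClass.coe_finset_sum,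
      Finset.sum_apply, Fintype.sum_prod_type, MulMemClass.coe_mul, Pi.mul_apply, map_mul]
    rw [this]
    refine Finset.sum_congr rfl fun a _ => Finset.sum_congr rfl fun b _ => ?_
    change _ = (c⁻¹).val b p.2 * ((N (L g))⁻¹).val p.1 a * _
    ring
  rintro ⟨f, hf⟩
  induction hf using Algebra.adjoin_induction with
  | mem x hx =>
    obtain ⟨⟨b, i, j⟩, rfl⟩ := hx
    cases b
    · exact hB i j
    · exact hA i j
  | algebraMap a =>
    have : (⟨algebraMap k (G → k) a, (CA G).algebraMap_mem a⟩ : CA G) =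
        φ (algebraMap k (CA G) a) := rfl
    rw [this]
    exact φ.isIntegralElem_map
  | add x y hx hy h h' => exact h.add φ h'
  | mul x y hx hy h h' => exact h.mul φ h'

/-- The Lang theorem for an endomorphism `σ` given by polynomials, some power of which raises
all entries to the power `q = r ^ e > 1`. -/
theorem lang_of_conn [IsAlgClosed k] (r e : ℕ) [ExpChar k r] (hq : 2 ≤ r ^ e)
    {G : Subgroup (GL n k)} (hG : Conn G) (σ : G →* G)
    (hσ : ∀ i j, (fun g : G => ((σ g : GL n k) : Matrix n n k) i j) ∈ CA G) (m : ℕ)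
    (hm : ∀ (g : G) i j, ((σ^[m] g : G) : GL n k).val i j = ((g : GL n k) : Matrix n n k) i j ^ (r ^ e))
    (a : G) : ∃ g : G, g⁻¹ * σ g = a := by
  haveI := isDomain_CA hG
  have hσ' : Reg (CA G) (fun g => (σ g : GL n k)) := by
    intro i j
    refine ⟨hσ i j, ?_⟩
    have := pre_mem (L := fun g : G => g⁻¹) (reg_id G).inv (hσ i j)
    convert this using 1
    funext g
    change _ = ((σ g⁻¹ : G) : GL n k).val i j
    rw [map_inv]; rfl
  have main : ∀ a : G, ∃ d : CA G, d ≠ 0 ∧ ∀ y : G, (d : G → k) y ≠ 0 → ∃ g, g⁻¹ * a * σ g = y := by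
    intro a
    have hL : Reg (CA G) (fun g : G => ((g⁻¹ * a * σ g : G) : GL n k)) :=
      ((reg_id G).inv.mul (Reg.const _ (a : GL n k))).mul hσ'
    have hN : ∀ m : ℕ, ∃ (c : G) (N : G → G), Reg (CA G) (fun g => (N g : GL n k)) ∧
        ∀ g, σ^[m] g = c * g * N (g⁻¹ * a * σ g) := by
      intro m
      induction m with
      | zero => exact ⟨1, fun _ => 1, Reg.const _ 1, fun g => by simp⟩
      | succ m ih =>
        obtain ⟨c, N, hN, h⟩ := ih
        refine ⟨σ c * a⁻¹, fun y => y * σ (N y), (reg_id G).mul (hN.comp hσ'), fun g => ?_⟩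
        rw [Function.iterate_succ_apply', h]
        simp only [map_mul]
        group
    obtain ⟨c, N, hN, h⟩ := hN m
    refine hits hG _ hL (integral_of_rel r e hq _ hL c (fun g => N g) hN ?_ ?_)
    · intro g i j
      rw [← hm, h]; rfl
    · intro g i j
      have := hm g⁻¹ i j
      rw [iterate_map_inv, h] at this
      exact this.symm
  obtain ⟨d, hd, h⟩ := main 1
  obtain ⟨d', hd', h'⟩ := main a
  have : ∃ y : G, ((d * d' : CA G) : G → k) y ≠ 0 := by
    by_contra hcon
    push Not at hcon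
    exact mul_ne_zero hd hd' (Subtype.ext (funext hcon))
  obtain ⟨y, hy⟩ := this
  have hy' : (d : G → k) y * (d' : G → k) y ≠ 0 := hy
  obtain ⟨g, hg⟩ := h y (left_ne_zero_of_mul hy')
  obtain ⟨g', hg'⟩ := h' y (right_ne_zero_of_mul hy')
  refine ⟨g * g'⁻¹, ?_⟩
  have e1 : σ g = g * y := by rw [← hg]; group
  have e2 : a = g' * y * (σ g')⁻¹ := by rw [← hg']; group
  rw [map_mul, map_inv, e1, e2]
  group

/-- The entrywise power map on a stable subgroup. -/
noncomputable def frobOn (r e : ℕ) [ExpChar k r] (G : Subgroup (GL n k))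
    (hF : ∀ g ∈ G, Matrix.GeneralLinearGroup.map (iterateFrobenius k r e) g ∈ G) : G →* G :=
  ((Matrix.GeneralLinearGroup.map (iterateFrobenius k r e)).comp G.subtype).codRestrict G
    fun g => hF g g.2

/-- The Lang theorem for the Frobenius map. -/
theorem lang_frob [IsAlgClosed k] (r e : ℕ) [ExpChar k r] (hq : 2 ≤ r ^ e)
    {G : Subgroup (GL n k)} (hG : Conn G)
    (hF : ∀ g ∈ G, Matrix.GeneralLinearGroup.map (iterateFrobenius k r e) g ∈ G)
    (a : GL n k) (ha : a ∈ G) :
    ∃ g ∈ G, g⁻¹ * Matrix.GeneralLinearGroup.map (iterateFrobenius k r e) g = a := by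
  obtain ⟨g, hg⟩ := lang_of_conn r e hq hG (frobOn r e G hF)
    (fun i j => (CA G).pow_mem (reg_id G i j).1 (r ^ e)) 1 (fun g i j => rfl) ⟨a, ha⟩
  exact ⟨g, g.2, congrArg Subtype.val hg⟩

end Cfsg.Agent.Lib.LangThm
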